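import Cfsg.Agent.Lib.HSubgroup.Line

/-!
# Chains of invariant subgroups in a `p`-group all of whose subgroups of a given order are invariant
-/

set_option autoImplicit false
set_option linter.unusedSectionVars false
set_option linter.style.haveILetI false

namespace Cfsg.Agent.Lib.HSubgroup.Chain

open Subgroup Cfsg Cfsg.Agent.Lib.HSubgroup.Basic Cfsg.Agent.Lib.HSubgroup.Sec
  Cfsg.Agent.Lib.HSubgroup.Line
open scoped commutatorElement

variable {G : Type*} [Group G] [Finite G] {p : ℕ} [hp : Fact p.Prime]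

/-- Elements of `N` acting on all cyclic `N`-sections of `L` with `p`-power order. -/
def N5 (p : ℕ) [Fact p.Prime] (N L : Subgroup G) : Subgroup G where
  carrier := {n | n ∈ N ∧ ∀ X Y, CycSec N L X Y → Tor p n X Y}
  mul_mem' := by
    rintro a b ⟨ha, ha'⟩ ⟨hb, hb'⟩
    exact ⟨N.mul_mem ha hb, fun X Y hs => hs.tor_mul ha hb (ha' X Y hs) (hb' X Y hs)⟩
  one_mem' := ⟨N.one_mem, fun X Y _ => ⟨0, fun x _ => by simp⟩⟩
  inv_mem' := by
    rintro a ⟨ha, ha'⟩
    exact ⟨N.inv_mem ha, fun X Y hs => hs.tor_inv ha (ha' X Y hs)⟩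

/-- The setting. -/
structure Hyp2 (p : ℕ) (L N : Subgroup G) (k : ℕ) : Prop where
  hL : IsPGroup p L
  hk : 1 ≤ k
  hlt : p ^ k < Nat.card L
  hLN : L ≤ N
  hNL : N ≤ normalizer (L : Set G)
  hF : ∀ F : Subgroup G, F ≤ L → (Nat.card F = p ^ k ∨ (p ^ k = 2 ∧ Nat.card F = 4)) →
    N ≤ normalizer (F : Set G)

theorem normalizer_bot_ge (N : Subgroup G) : N ≤ normalizer ((⊥ : Subgroup G) : Set G) := by
  intro n _
  rw [mem_normalizer_iff]
  intro b
  simp

theorem cycSec_zpowers {N L : Subgroup G} {x : G} (hx : x ∈ L)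
    (hN : N ≤ normalizer ((zpowers x : Subgroup G) : Set G)) : CycSec N L (zpowers x) ⊥ where
  hYX := bot_le
  hXL := (zpowers_le).mpr hx
  hNX := hN
  hNY := normalizer_bot_ge N
  hXY := normalizer_bot_ge _
  hgen := ⟨x, mem_zpowers x, by
    rintro _ ⟨i, rfl⟩
    exact ⟨i, by simp⟩⟩

theorem eq_of_trivOn_bot {y x : G} {X : Subgroup G} (h : TrivOn y X ⊥) (hx : x ∈ X) :
    y * x * y⁻¹ = x := by
  have := h x hx
  rw [mem_bot, inv_mul_eq_one] at this
  exact this.symm

/-- Fixed points: a `p`-element difference fixed by a `p'`-element vanishes. -/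
theorem eq_of_diff_fixed {y x f : G} (hc : (orderOf y).Coprime p) (hf : ∃ k : ℕ, f ^ p ^ k = 1)
    (hfy : y * f * y⁻¹ = f) (hx : f = x⁻¹ * (y * x * y⁻¹)) : y * x * y⁻¹ = x := by
  have key : ∀ k : ℕ, y ^ k * x * (y ^ k)⁻¹ = x * f ^ k := by
    intro k
    induction k with
    | zero => simp
    | succ k ih =>
      have h1 : y * x * y⁻¹ = x * f := by rw [hx]; group
      have h2 : y * f ^ k * y⁻¹ = f ^ k := by
        rw [← conj_pow, hfy]
      calc y ^ (k + 1) * x * (y ^ (k + 1))⁻¹ = y * (y ^ k * x * (y ^ k)⁻¹) * y⁻¹ := by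
            rw [pow_succ']; group
        _ = y * (x * f ^ k) * y⁻¹ := by rw [ih]
        _ = (y * x * y⁻¹) * (y * f ^ k * y⁻¹) := by group
        _ = x * f ^ (k + 1) := by rw [h1, h2, pow_succ']; group
  have h1 := key (orderOf y)
  rw [pow_orderOf_eq_one] at h1
  have h2 : f ^ orderOf y = 1 := by
    have : x * f ^ orderOf y = x := by simpa using h1.symm
    simpa using this
  obtain ⟨k, hk⟩ := hf
  have h3 : orderOf f = 1 := Nat.eq_one_of_dvd_coprimes (hc.pow_right k)
    (orderOf_dvd_of_pow_eq_one h2) (orderOf_dvd_of_pow_eq_one hk)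
  have h7 : f = 1 := orderOf_eq_one_iff.mp h3
  rw [h7, eq_comm, inv_mul_eq_one] at hx
  exact hx.symm

section PP

variable {L N : Subgroup G} {k : ℕ}

theorem Hyp2.centralizes_large (H : Hyp2 p L N k) {y : G} (hy : y ∈ N)
    (hc : (orderOf y).Coprime p) (htriv : ∀ X Y, CycSec N L X Y → TrivOn y X Y)
    {z : G} (hz : z ∈ L) (hzk : p ^ k ≤ orderOf z) : ∀ x ∈ L, y * x * y⁻¹ = x := by
  -- the order of `z`
  have hzp : IsPGroup p (zpowers z) := H.hL.to_le ((zpowers_le).mpr hz)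
  obtain ⟨m, hm⟩ := IsPGroup.iff_card.mp hzp
  rw [Nat.card_zpowers] at hm
  have hkm : k ≤ m := by
    rw [hm] at hzk
    exact (Nat.pow_le_pow_iff_right hp.out.one_lt).mp hzk
  set u := z ^ p ^ (m - k) with hu
  have hou : orderOf u = p ^ k := by
    have e : p ^ (m - k) = orderOf z / p ^ k := by rw [hm, Nat.pow_div hkm hp.out.pos]
    rw [hu, e, orderOf_pow_orderOf_div (by rw [hm]; exact (pow_pos hp.out.pos m).ne')
      (by rw [hm]; exact pow_dvd_pow p hkm)]
  have huL : u ∈ L := L.pow_mem hz _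
  set E₀ := zpowers u with hE₀
  have hE₀L : E₀ ≤ L := (zpowers_le).mpr huL
  have hcE₀ : Nat.card E₀ = p ^ k := by rw [hE₀, Nat.card_zpowers, hou]
  have hNE₀ : N ≤ normalizer (E₀ : Set G) := H.hF E₀ hE₀L (Or.inl hcE₀)
  have hcent : ∀ c ∈ E₀, y * c * y⁻¹ = c := fun c hc' =>
    eq_of_trivOn_bot (htriv _ _ (cycSec_zpowers huL hNE₀)) hc'
  refine Small.conj_eq_of_small hc H.hL (H.hNL hy) ?_
  intro x hx hsmall
  have hcx : Nat.card (zpowers x) = orderOf x := Nat.card_zpowers x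
  by_cases hok : p ^ k ≤ orderOf x
  · have hNx : N ≤ normalizer ((zpowers x : Subgroup G) : Set G) := by
      apply H.hF _ ((zpowers_le).mpr hx)
      rw [hcx]
      have hk2 : p ≤ p ^ k := Nat.le_self_pow (by have := H.hk; omega) p
      rcases hsmall with h1 | ⟨h2, h4⟩
      · left
        have hdvd : orderOf x ∣ p := orderOf_dvd_of_pow_eq_one h1
        have hle : orderOf x ≤ p := Nat.le_of_dvd hp.out.pos hdvd
        omega
      · subst h2
        have hdvd : orderOf x ∣ 4 := orderOf_dvd_of_pow_eq_one h4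
        have hle : orderOf x ≤ 4 := Nat.le_of_dvd (by norm_num) hdvd
        have hk3 : k = 1 ∨ k = 2 := by
          have : 2 ^ k ≤ 2 ^ 2 := by omega
          have := (Nat.pow_le_pow_iff_right (by norm_num)).mp this
          have := H.hk
          omega
        rcases hk3 with rfl | rfl
        · have hcases : orderOf x = 2 ∨ orderOf x = 4 := by
            have h3 : orderOf x ∣ 2 ^ 2 := by simpa using hdvd
            obtain ⟨j, hj, hj2⟩ := (Nat.dvd_prime_pow Nat.prime_two).mp h3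
            interval_cases j
            · rw [hj2] at hok; norm_num at hok
            · left; simpa using hj2
            · right; simpa using hj2
          rcases hcases with h | h
          · left; omega
          · right; omega
        · left; omega
    exact eq_of_trivOn_bot (htriv _ _ (cycSec_zpowers hx hNx)) (mem_zpowers x)
  · push Not at hok
    have hle : zpowers x ≤ normalizer (E₀ : Set G) :=
      ((zpowers_le).mpr (H.hLN hx)).trans hNE₀
    set X : Subgroup G := zpowers x ⊔ E₀ with hX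
    have hXL : X ≤ L := sup_le ((zpowers_le).mpr hx) hE₀L
    obtain ⟨E, hxE, hEX, hEc⟩ := exists_between_card (p := p) (H := zpowers x) (X := X) (m := k)
      le_sup_left (H.hL.to_le hXL) (by rw [hcx]; exact hok.le)
      (by
        rw [← hcE₀]
        exact Subgroup.card_le_of_le (le_sup_right : E₀ ≤ X))
    have hEL : E ≤ L := hEX.trans hXL
    have hNE : N ≤ normalizer (E : Set G) := H.hF E hEL (Or.inl hEc)
    have hxE' : x ∈ E := hxE (mem_zpowers x)
    have hNF : N ≤ normalizer ((E ⊓ E₀ : Subgroup G) : Set G) := by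
      intro n hn
      apply mem_normalizer_of_conj_le
      rintro c ⟨hc1, hc2⟩
      exact ⟨(mem_normalizer_iff.mp (hNE hn) c).mp hc1, (mem_normalizer_iff.mp (hNE₀ hn) c).mp hc2⟩
    have hs : CycSec N L E (E ⊓ E₀) :=
      { hYX := inf_le_left
        hXL := hEL
        hNX := hNE
        hNY := hNF
        hXY := (hEL.trans H.hLN).trans hNF
        hgen := ⟨x, hxE', by
          intro e he
          have h1 : e ∈ ((X : Subgroup G) : Set G) := hEX he
          rw [hX, coe_mul_of_left_le_normalizer_right _ _ hle] at h1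
          obtain ⟨a, ⟨i, rfl⟩, c, hc', rfl⟩ := h1
          refine ⟨i, ?_, ?_⟩
          · exact E.mul_mem (E.inv_mem (E.zpow_mem hxE' i)) he
          · simpa using hc'⟩ }
    have h1 := htriv _ _ hs x hxE'
    refine eq_of_diff_fixed (p := p) hc ?_ (hcent _ h1.2) rfl
    obtain ⟨j, hj⟩ := (H.hL.to_le hEL) ⟨_, h1.1⟩
    exact ⟨j, congrArg Subtype.val hj⟩

theorem Hyp2.centralizes_small (H : Hyp2 p L N k) {y : G} (hy : y ∈ N)
    (hc : (orderOf y).Coprime p) (htriv : ∀ X Y, CycSec N L X Y → TrivOn y X Y)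
    (hsm : ∀ z ∈ L, orderOf z < p ^ k) : ∀ x ∈ L, y * x * y⁻¹ = x := by
  have hLp : IsPGroup p L := H.hL
  set A : Subgroup G := zpowers y with hA
  have hAN : A ≤ N := (zpowers_le).mpr hy
  set C : Subgroup L := (centralizer (A : Set G)).subgroupOf L with hC
  by_cases htop : C = ⊤
  · intro x hx
    have h1 : (⟨x, hx⟩ : L) ∈ C := htop ▸ mem_top _
    have h2 : x ∈ centralizer (A : Set G) := h1
    rw [mem_centralizer_iff] at h2
    have h3 := h2 y (mem_zpowers y)
    rw [mul_inv_eq_iff_eq_mul]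
    exact h3
  exfalso
  obtain ⟨M', hM', hCM⟩ := (eq_top_or_exists_le_coatom C).resolve_left htop
  haveI hM'n : M'.Normal := Cfsg.Agent.Lib.PGroups.Basic.normal_of_isCoatom hLp hM'
  have hidx : M'.index = p := Cfsg.Agent.Lib.PGroups.Basic.index_eq_of_isCoatom hLp hM'
  set M : Subgroup G := M'.map L.subtype with hM
  have hcM : Nat.card M = Nat.card M' :=
    Nat.card_congr (M'.equivMapOfInjective L.subtype L.subtype_injective).symm.toEquiv
  have hML : M ≤ L := map_subtype_le _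
  have hcardM : p ^ k ≤ Nat.card M := by
    rw [hcM]
    have h2 := card_mul_index M'
    rw [hidx] at h2
    obtain ⟨a', ha'⟩ := IsPGroup.iff_card.mp hLp
    have hka : k < a' := by
      have := H.hlt
      rw [ha'] at this
      exact (Nat.pow_lt_pow_iff_right hp.out.one_lt).mp this
    have h5 : p ^ (k + 1) ≤ Nat.card L := by
      rw [ha']
      exact Nat.pow_le_pow_right hp.out.pos hka
    rw [← h2, pow_succ] at h5
    exact Nat.le_of_mul_le_mul_right h5 hp.out.pos
  have hNM : N ≤ normalizer (M : Set G) := by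
    intro n hn
    apply mem_normalizer_of_conj_le
    intro z hz
    obtain ⟨E, hzE, hEM, hEc⟩ := exists_between_card (p := p) (H := zpowers z) (X := M) (m := k)
      ((zpowers_le).mpr hz) (hLp.to_le hML)
      (by rw [Nat.card_zpowers]; exact (hsm z (hML hz)).le) hcardM
    have hNE : N ≤ normalizer (E : Set G) := H.hF E (hEM.trans hML) (Or.inl hEc)
    exact hEM ((mem_normalizer_iff.mp (hNE hn) z).mp (hzE (mem_zpowers z)))
  -- an element outside `M'`
  obtain ⟨w, hw⟩ : ∃ w : L, w ∉ M' := by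
    by_contra hcon
    push Not at hcon
    exact hM'.1 (eq_top_iff.mpr fun x _ => hcon x)
  have hwM : (w : G) ∉ M := by
    rintro ⟨b, hb, hbw⟩
    have : b = w := Subtype.ext hbw
    exact hw (this ▸ hb)
  have hq : Nat.card (L ⧸ M') = p := by rw [← Subgroup.index_eq_card, hidx]
  have hs : CycSec N L L M :=
    { hYX := hML
      hXL := le_rfl
      hNX := H.hNL
      hNY := hNM
      hXY := H.hLN.trans hNM
      hgen := ⟨w, w.2, by
        intro x hx
        have h1 : ((w : L) : L ⧸ M') ≠ 1 := by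
          rw [Ne, QuotientGroup.eq_one_iff]
          exact hw
        have h2 := mem_zpowers_of_prime_card (g' := ((⟨x, hx⟩ : L) : L ⧸ M')) hq h1
        obtain ⟨i, hi⟩ := h2
        refine ⟨i, ?_⟩
        simp only at hi
        rw [← QuotientGroup.mk_zpow, QuotientGroup.eq] at hi
        exact ⟨_, hi, by simp⟩⟩ }
  have htr : TrivOn y L M := htriv _ _ hs
  -- all powers of `y`
  haveI hnn := normal_subgroupOf_of_le hs.hXY
  have htrA : ∀ a ∈ A, a * (w : G) * a⁻¹ * (w : G)⁻¹ ∈ M := by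
    intro a ha
    have h0 : secHom hs.hNX hs.hNY (⟨y, hy⟩ : N) = 1 := (secHom_eq_one_iff _ _ _).mpr htr
    obtain ⟨i, rfl⟩ := ha
    simp only
    have h1 : (⟨y, hy⟩ : N) ^ i = ⟨y ^ i, N.zpow_mem hy i⟩ := rfl
    have h2 : secHom hs.hNX hs.hNY (⟨y ^ i, N.zpow_mem hy i⟩ : N) = 1 := by
      rw [← h1, map_zpow, h0, one_zpow]
    have h3 := (secHom_eq_one_iff _ _ _).mp h2 w w.2
    have h4 := (mem_normalizer_iff.mp (H.hLN.trans hNM w.2) _).mp h3
    have e : (w : G) * ((w : G)⁻¹ * (y ^ i * w * (y ^ i)⁻¹)) * (w : G)⁻¹ =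
        y ^ i * w * (y ^ i)⁻¹ * (w : G)⁻¹ := by group
    rwa [e] at h4
  have hcop : (Nat.card A).Coprime (Nat.card L) := by
    obtain ⟨a', ha'⟩ := IsPGroup.iff_card.mp hLp
    rw [hA, Nat.card_zpowers, ha']
    exact hc.pow_right a'
  have hsolv : Group.IsSolvable A ∨ Group.IsSolvable L := by
    right
    haveI := hLp.isNilpotent
    infer_instance
  obtain ⟨c, ⟨hcL, hcC⟩, hcw⟩ := Cfsg.Agent.Lib.Coprime.Action.exists_fixed_of_fixed_mod M
    (hAN.trans H.hNL) hcop hsolv hML (H.hLN.trans hNM) (hAN.trans hNM) w.2 htrA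
  have hcM' : (⟨c, hcL⟩ : L) ∈ M' := hCM hcC
  have hcMM : c ∈ M := ⟨_, hcM', rfl⟩
  apply hwM
  have : (w : G) = c * ((w : G)⁻¹ * c)⁻¹ := by group
  rw [this]
  exact M.mul_mem hcMM (M.inv_mem hcw)

/-- `p'`-elements acting trivially on all cyclic sections centralize `L`. -/
theorem Hyp2.centralizes (H : Hyp2 p L N k) {y : G} (hy : y ∈ N)
    (hc : (orderOf y).Coprime p) (htriv : ∀ X Y, CycSec N L X Y → TrivOn y X Y) :
    ∀ x ∈ L, y * x * y⁻¹ = x := by
  by_cases hl : ∃ z ∈ L, p ^ k ≤ orderOf z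
  · obtain ⟨z, hz, hzk⟩ := hl
    exact H.centralizes_large hy hc htriv hz hzk
  · push Not at hl
    exact H.centralizes_small hy hc htriv hl

/-- The invariant line above an invariant subgroup. -/
theorem Hyp2.exists_line (H : Hyp2 p L N k) {A : Subgroup G} (hAL : A ≤ L) (hAne : A ≠ L)
    (hNA : N ≤ normalizer (A : Set G)) :
    ∃ (g : G), g ∈ L ∧ g ∉ A ∧ N ≤ normalizer ((A ⊔ zpowers g : Subgroup G) : Set G) := by
  classical
  haveI hnn : (A.subgroupOf L).Normal := normal_subgroupOf_of_le (H.hLN.trans hNA)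
  let Q := L ⧸ A.subgroupOf L
  have hQp : IsPGroup p Q := H.hL.to_quotient _
  have hQnt : Nontrivial Q := by
    rw [QuotientGroup.nontrivial_iff]
    intro h
    apply hAne
    apply le_antisymm hAL
    intro x hx
    have : (⟨x, hx⟩ : L) ∈ A.subgroupOf L := h ▸ mem_top _
    exact this
  let s : N →* MulAut Q := secHom H.hNL hNA
  let Γ : Subgroup (MulAut Q) := s.range
  let Γ₅ : Subgroup (MulAut Q) := ((N5 p N L).subgroupOf N).map s
  have h5 : IsPGroup p Γ₅ := by
    rintro ⟨_, n, hn, rfl⟩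
    have hn' : (n : G) ∈ N5 p N L := hn
    obtain ⟨a, b, hab, hcomm, ha, hb, ⟨j, hj⟩, hcop⟩ :=
      Cfsg.Agent.Lib.Transfer.Basic.exists_pPart_decomp (p := p) (n : G)
    have hbN5 : b ∈ N5 p N L := (zpowers_le.mpr hn') hb
    have haN : a ∈ N := (zpowers_le.mpr n.2) ha
    have hbN : b ∈ N := hbN5.1
    have hcentr := H.centralizes hbN hcop (fun X Y hs => hs.trivOn_of_tor hbN hcop (hbN5.2 X Y hs))
    have hsb : s ⟨b, hbN⟩ = 1 := by
      refine (secHom_eq_one_iff _ _ _).mpr ?_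
      intro x hx
      have : b * x * b⁻¹ = x := hcentr x hx
      simp only
      rw [this, inv_mul_cancel]
      exact A.one_mem
    refine ⟨j, ?_⟩
    apply Subtype.ext
    have hnab : n = ⟨a, haN⟩ * ⟨b, hbN⟩ := Subtype.ext hab
    have hpow : (⟨a, haN⟩ : N) ^ p ^ j = 1 := Subtype.ext hj
    simp only [SubgroupClass.coe_pow, OneMemClass.coe_one]
    rw [hnab, map_mul, hsb, mul_one, ← map_pow, hpow, map_one]
  have hmem5 : ∀ n : N, (n : G) ∈ N5 p N L → s n ∈ Γ₅ := fun n hn => ⟨n, hn, rfl⟩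
  obtain ⟨B, hBc, hBinv⟩ := exists_invariant_order_p hQp Γ Γ₅ h5
    (by
      rintro _ ⟨m, rfl⟩ _ ⟨n, hn, rfl⟩
      rw [← map_inv, ← map_mul, ← map_mul]
      apply hmem5
      refine ⟨N.mul_mem (N.mul_mem m.2 n.2) (N.inv_mem m.2), fun X Y hs => ?_⟩
      exact hs.tor_conj n.2 m.2 (hn.2 X Y hs))
    (by
      rintro _ ⟨m, rfl⟩
      rw [← map_pow]
      apply hmem5
      exact ⟨N.pow_mem m.2 _, fun X Y hs => hs.tor_pow_pred H.hL m.2⟩)
    (by
      rintro _ ⟨m, rfl⟩ _ ⟨n, rfl⟩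
      rw [← map_commutatorElement]
      apply hmem5
      refine ⟨?_, fun X Y hs => ?_⟩
      · exact Subtype.coe_prop _
      · have := hs.tor_comm (p := p) m.2 n.2
        simpa [commutatorElement_def] using this)
  -- choose the element
  have hBnt : Nontrivial B := by
    rw [← Finite.one_lt_card_iff_nontrivial, hBc]
    exact hp.out.one_lt
  obtain ⟨⟨v, hv⟩, hv1⟩ := exists_ne (1 : B)
  have hv1' : v ≠ 1 := fun h => hv1 (Subtype.ext h)
  obtain ⟨g₀, rfl⟩ := QuotientGroup.mk_surjective v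
  refine ⟨g₀, g₀.2, ?_, ?_⟩
  · intro hg
    apply hv1'
    rw [QuotientGroup.eq_one_iff]
    exact hg
  intro n hn
  apply mem_normalizer_of_conj_le
  -- the subgroup is mapped into itself
  have hle : A ⊔ zpowers (g₀ : G) ≤ (A ⊔ zpowers (g₀ : G)).comap (MulAut.conj n).toMonoidHom := by
    apply sup_le
    · intro a ha
      exact (le_sup_left : A ≤ _) ((mem_normalizer_iff.mp (hNA hn) a).mp ha)
    · rw [zpowers_le]
      show n * (g₀ : G) * n⁻¹ ∈ A ⊔ zpowers (g₀ : G)
      have h1 : s ⟨n, hn⟩ ((g₀ : L) : Q) ∈ B := hBinv _ ⟨⟨n, hn⟩, rfl⟩ _ hv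
      have h2 := secHom_mk H.hNL hNA (⟨n, hn⟩ : N) g₀
      have h3 : (((conjX H.hNL (⟨n, hn⟩ : N) g₀ : L)) : Q) ∈ zpowers ((g₀ : L) : Q) := by
        have h4 : ((conjX H.hNL (⟨n, hn⟩ : N) g₀ : L) : Q) = s ⟨n, hn⟩ ((g₀ : L) : Q) := h2.symm
        rw [h4]
        have h5' : (⟨_, h1⟩ : B) ∈ zpowers (⟨((g₀ : L) : Q), hv⟩ : B) :=
          mem_zpowers_of_prime_card hBc hv1
        obtain ⟨i, hi⟩ := h5'
        exact ⟨i, congrArg Subtype.val hi⟩
      obtain ⟨i, hi⟩ := h3
      simp only at hi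
      rw [← QuotientGroup.mk_zpow, QuotientGroup.eq, mem_subgroupOf] at hi
      have h6 : (((g₀ ^ i)⁻¹ * conjX H.hNL (⟨n, hn⟩ : N) g₀ : L) : G) =
          ((g₀ : G) ^ i)⁻¹ * (n * g₀ * n⁻¹) := by simp
      rw [h6] at hi
      have e : n * (g₀ : G) * n⁻¹ = (g₀ : G) ^ i * (((g₀ : G) ^ i)⁻¹ * (n * g₀ * n⁻¹)) := by group
      rw [e]
      exact mul_mem ((le_sup_right : zpowers (g₀ : G) ≤ _) (zpow_mem (mem_zpowers _) _))
        ((le_sup_left : A ≤ _) hi)
  intro x hx
  exact hle hx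

end PP

end Cfsg.Agent.Lib.HSubgroup.Chain
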