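import Mathlib

/-!
# Eigenvectors of automorphisms with `T ^ (p - 1) = 1` on elementary abelian `p`-groups
-/

set_option autoImplicit false
set_option linter.style.haveILetI false

namespace Cfsg.Agent.Lib.HSubgroup.Eigen

open Polynomial

variable {p : ℕ} [hp : Fact p.Prime]

/-- Linear version. -/
theorem exists_eigen_linear {V : Type*} [AddCommGroup V] [Module (ZMod p) V] [Finite V] [Nontrivial V]
    (T : V →ₗ[ZMod p] V) (hT : T ^ (p - 1) = 1) : ∃ (a : ZMod p) (v : V), v ≠ 0 ∧ T v = a • v := by
  have : FiniteDimensional (ZMod p) V := Module.Finite.of_finite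
  have hint : IsIntegral (ZMod p) T := Algebra.IsIntegral.isIntegral T
  set m := minpoly (ZMod p) T with hm
  have hdvd : m ∣ X ^ (p - 1) - 1 := by
    apply minpoly.dvd
    simp [hT]
  -- `X ^ p - X` splits
  have h1 : (X ^ p - X : (ZMod p)[X]) = (X ^ (p - 1) - 1) * X := by
    have : (X ^ p : (ZMod p)[X]) = X ^ (p - 1) * X := by
      rw [← pow_succ]
      congr 1
      have := hp.out.two_le
      omega
    rw [this]
    ring
  have h2 : (X ^ p - X : (ZMod p)[X]).Splits := by
    rw [Polynomial.splits_iff_card_roots]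
    have h := FiniteField.roots_X_pow_card_sub_X (ZMod p)
    rw [ZMod.card] at h
    rw [h, FiniteField.X_pow_card_sub_X_natDegree_eq _ hp.out.one_lt]
    simp [ZMod.card]
  have hms : m.Splits := h2.of_dvd (FiniteField.X_pow_card_sub_X_ne_zero _ hp.out.one_lt)
    (h1 ▸ hdvd.mul_right X)
  have hdeg : m.degree ≠ 0 := (minpoly.degree_pos hint).ne'
  obtain ⟨a, ha⟩ := Polynomial.Splits.exists_eval_eq_zero hms hdeg
  have hroot : m.IsRoot a := ha
  have hev := Module.End.hasEigenvalue_of_isRoot (f := T) hroot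
  obtain ⟨v, hv⟩ := hev.exists_hasEigenvector
  exact ⟨a, v, hv.2, hv.apply_eq_smul⟩

/-- Additive version. -/
theorem exists_eigen_add {V : Type*} [AddCommGroup V] [Module (ZMod p) V] [Finite V] [Nontrivial V]
    (S : V →+ V) (hS : ∀ v : V, S^[p - 1] v = v) :
    ∃ (v : V) (l : ℕ), v ≠ 0 ∧ S v = l • v := by
  let L : V →ₗ[ZMod p] V := S.toZModLinearMap p
  have key : ∀ k : ℕ, ∀ y : V, (L ^ k) y = S^[k] y := by
    intro k
    induction k with
    | zero => intro y; rfl
    | succ k ih =>
      intro y
      rw [pow_succ, Module.End.mul_apply, Function.iterate_succ_apply]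
      exact ih _
  obtain ⟨a, v, hv, hLv⟩ := exists_eigen_linear L (by
    ext x
    rw [key, hS]
    rfl)
  refine ⟨v, a.val, hv, ?_⟩
  have h1 : (a.val : ZMod p) = a := ZMod.natCast_zmod_val a
  have h2 : a • v = (a.val : ℕ) • v := by
    nth_rewrite 1 [← h1]
    exact Nat.cast_smul_eq_nsmul _ _ _
  rw [h2] at hLv
  exact hLv

/-- Multiplicative version. -/
theorem exists_eigen {W : Type*} [CommGroup W] [Finite W] [Nontrivial W]
    (hW : ∀ w : W, w ^ p = 1) (T : W →* W) (hT : ∀ w : W, T^[p - 1] w = w) :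
    ∃ (v : W) (l : ℕ), v ≠ 1 ∧ T v = v ^ l := by
  letI inst : Module (ZMod p) (Additive W) := AddCommGroup.zmodModule (n := p) (by
    intro x
    exact congrArg Additive.ofMul (hW x.toMul))
  let S : Additive W →+ Additive W := MonoidHom.toAdditive T
  have hS : ∀ k : ℕ, ∀ y : W, S^[k] (Additive.ofMul y) = Additive.ofMul (T^[k] y) := by
    intro k
    induction k with
    | zero => intro y; rfl
    | succ k ih =>
      intro y
      rw [Function.iterate_succ_apply, Function.iterate_succ_apply]
      exact ih _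
  obtain ⟨v, l, hv, hSv⟩ := exists_eigen_add (p := p) S (fun v => by
    have := hS (p - 1) v.toMul
    rw [hT] at this
    exact this)
  refine ⟨v.toMul, l, ?_, ?_⟩
  · intro h
    apply hv
    exact congrArg Additive.ofMul h
  · exact congrArg Additive.toMul hSv

end Cfsg.Agent.Lib.HSubgroup.Eigen
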