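import Cfsg.Agent.Lib.HSubgroup.Sec
import Cfsg.Agent.Lib.HSubgroup.Eigen

/-!
# Invariant subgroups of order `p`
-/

set_option autoImplicit false
set_option linter.unusedSectionVars false
set_option linter.style.haveILetI false

namespace Cfsg.Agent.Lib.HSubgroup.Line

open Subgroup Cfsg Cfsg.Agent.Lib.HSubgroup.Basic Cfsg.Agent.Lib.HSubgroup.Sec
open scoped commutatorElement

section abstract

variable {Q : Type*} [Group Q] [Finite Q] {p : ℕ} [hp : Fact p.Prime]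

/-- `Ω₁(Z(Q))`. -/
def omZ (p : ℕ) (Q : Type*) [Group Q] : Subgroup Q where
  carrier := {x | x ∈ center Q ∧ x ^ p = 1}
  mul_mem' := by
    rintro a b ⟨ha, ha'⟩ ⟨hb, hb'⟩
    refine ⟨(center Q).mul_mem ha hb, ?_⟩
    have : Commute a b := (mem_center_iff.mp hb a)
    rw [this.mul_pow, ha', hb', one_mul]
  one_mem' := ⟨(center Q).one_mem, one_pow _⟩
  inv_mem' := by
    rintro a ⟨ha, ha'⟩
    exact ⟨(center Q).inv_mem ha, by rw [inv_pow, ha', inv_one]⟩

/-- Elements of `Ω₁(Z(Q))` fixed by `Γ₅`. -/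
def omZFix (p : ℕ) (Γ₅ : Subgroup (MulAut Q)) : Subgroup Q where
  carrier := {x | x ∈ omZ p Q ∧ ∀ b ∈ Γ₅, b x = x}
  mul_mem' := by
    rintro a c ⟨ha, ha'⟩ ⟨hc, hc'⟩
    refine ⟨(omZ p Q).mul_mem ha hc, fun b hb => ?_⟩
    rw [map_mul, ha' b hb, hc' b hb]
  one_mem' := ⟨(omZ p Q).one_mem, fun b _ => map_one b⟩
  inv_mem' := by
    rintro a ⟨ha, ha'⟩
    exact ⟨(omZ p Q).inv_mem ha, fun b hb => by rw [map_inv, ha' b hb]⟩

theorem aut_mem_center (a : MulAut Q) {x : Q} (hx : x ∈ center Q) : a x ∈ center Q := by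
  rw [mem_center_iff] at hx ⊢
  intro g
  have := hx (a.symm g)
  have h2 := congrArg a this
  simpa using h2

theorem exists_ne_one_omZFix [Nontrivial Q] (hQ : IsPGroup p Q) (Γ₅ : Subgroup (MulAut Q))
    (h5 : IsPGroup p Γ₅) : ∃ x ∈ omZFix p Γ₅, x ≠ 1 := by
  classical
  obtain ⟨z, -, hzc, hzo⟩ := Cfsg.Agent.Lib.PGroups.Basic.exists_central_orderOf_eq hQ
    (⊤ : Subgroup Q) (by exact top_ne_bot)
  have hzV : z ∈ omZ p Q := ⟨hzc, hzo ▸ pow_orderOf_eq_one z⟩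
  have hpV : p ∣ Nat.card (omZ p Q) := by
    have := Subgroup.orderOf_dvd_natCard _ hzV
    rwa [hzo] at this
  let act : MulAction Γ₅ (omZ p Q) :=
    { smul := fun b x => ⟨(b : MulAut Q) x, aut_mem_center _ x.2.1, by
        rw [← map_pow, x.2.2, map_one]⟩
      one_smul := fun x => Subtype.ext rfl
      mul_smul := fun a b x => Subtype.ext rfl }
  have hfix : (1 : omZ p Q) ∈ MulAction.fixedPoints Γ₅ (omZ p Q) := by
    intro b
    apply Subtype.ext
    exact map_one _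
  obtain ⟨c, hc, hne⟩ := h5.exists_fixed_point_of_prime_dvd_card_of_fixed_point _ hpV hfix
  refine ⟨c, ⟨c.2, fun b hb => ?_⟩, ?_⟩
  · have := hc ⟨b, hb⟩
    exact congrArg Subtype.val this
  · intro h
    apply hne
    exact (Subtype.ext h).symm

/-- **The abstract invariant line**. -/
theorem exists_invariant_order_p [Nontrivial Q] (hQ : IsPGroup p Q) (Γ Γ₅ : Subgroup (MulAut Q))
    (h5 : IsPGroup p Γ₅) (hnorm : ∀ a ∈ Γ, ∀ b ∈ Γ₅, a * b * a⁻¹ ∈ Γ₅)
    (hpow : ∀ a ∈ Γ, a ^ (p - 1) ∈ Γ₅) (hcomm : ∀ a ∈ Γ, ∀ b ∈ Γ, ⁅a, b⁆ ∈ Γ₅) :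
    ∃ B : Subgroup Q, Nat.card B = p ∧ ∀ a ∈ Γ, ∀ x ∈ B, a x ∈ B := by
  classical
  set V₅ := omZFix p Γ₅ with hV₅
  -- invariance of `V₅`
  have hV₅inv : ∀ a ∈ Γ, ∀ x ∈ V₅, a x ∈ V₅ := by
    rintro a ha x ⟨⟨hx1, hx2⟩, hx3⟩
    refine ⟨⟨aut_mem_center a hx1, by rw [← map_pow, hx2, map_one]⟩, fun b hb => ?_⟩
    have h1 : a⁻¹ * b * a ∈ Γ₅ := by
      have := hnorm a⁻¹ (Γ.inv_mem ha) b hb
      simpa using this
    have h2 := hx3 _ h1
    have h3 : a ((a⁻¹ * b * a) x) = a x := by rw [h2]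
    simpa [MulAut.mul_apply] using h3
  -- minimal choice
  let S : Set (Subgroup Q) := {B | B ≤ V₅ ∧ B ≠ ⊥ ∧ ∀ a ∈ Γ, ∀ x ∈ B, a x ∈ B}
  have hV₅S : V₅ ∈ S := by
    refine ⟨le_rfl, ?_, hV₅inv⟩
    obtain ⟨x, hx, hx1⟩ := exists_ne_one_omZFix hQ Γ₅ h5
    intro h
    have hx' : x ∈ V₅ := hx
    rw [h, mem_bot] at hx'
    exact hx1 hx'
  obtain ⟨B, -, hB⟩ := Set.Finite.exists_le_minimal (s := S) (Set.toFinite _) hV₅S
  obtain ⟨hBV, hBne, hBinv⟩ := hB.prop
  have hBmin : ∀ C ≤ B, C ≠ ⊥ → (∀ a ∈ Γ, ∀ x ∈ C, a x ∈ C) → C = B := by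
    intro C hCB hC hCinv
    exact le_antisymm hCB (hB.le_of_le ⟨hCB.trans hBV, hC, hCinv⟩ hCB)
  have hcen : ∀ x ∈ B, x ∈ center Q := fun x hx => (hBV hx).1.1
  have hexp : ∀ x ∈ B, x ^ p = 1 := fun x hx => (hBV hx).1.2
  have hfixB : ∀ x ∈ B, ∀ b ∈ Γ₅, b x = x := fun x hx => (hBV hx).2
  -- each `a ∈ Γ` acts as a power
  have hscalar : ∀ a ∈ Γ, ∃ l : ℕ, ∀ x ∈ B, a x = x ^ l := by
    intro a ha
    letI : CommGroup B :=
      { (inferInstance : Group B) with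
        mul_comm := fun x y => Subtype.ext (mem_center_iff.mp (hcen y y.2) x) }
    have hnt : Nontrivial B := (Subgroup.bot_or_nontrivial B).resolve_left hBne
    let T : B →* B := MonoidHom.mk' (fun x => ⟨a x, hBinv a ha x x.2⟩)
      (fun x y => Subtype.ext (by simp))
    have hTit : ∀ k : ℕ, ∀ x : B, ((T^[k] x : B) : Q) = (a ^ k) x := by
      intro k
      induction k with
      | zero => intro x; rfl
      | succ k ih =>
        intro x
        rw [Function.iterate_succ_apply, ih, pow_succ, MulAut.mul_apply]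
        rfl
    obtain ⟨v, l, hv, hTv⟩ := Cfsg.Agent.Lib.HSubgroup.Eigen.exists_eigen (p := p)
      (fun w : B => Subtype.ext (by simpa using hexp w w.2)) T (fun x => by
        apply Subtype.ext
        rw [hTit]
        exact hfixB x x.2 _ (hpow a ha))
    refine ⟨l, ?_⟩
    -- eigenspace
    let C : Subgroup Q :=
      { carrier := {x | x ∈ B ∧ a x = x ^ l}
        mul_mem' := by
          rintro x y ⟨hx, hx'⟩ ⟨hy, hy'⟩
          refine ⟨B.mul_mem hx hy, ?_⟩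
          have : Commute x y := (mem_center_iff.mp (hcen y hy) x)
          rw [map_mul, hx', hy', this.mul_pow]
        one_mem' := ⟨B.one_mem, by simp⟩
        inv_mem' := by
          rintro x ⟨hx, hx'⟩
          exact ⟨B.inv_mem hx, by rw [map_inv, hx', inv_pow]⟩ }
    have hCB : C ≤ B := fun x hx => hx.1
    have hCne : C ≠ ⊥ := by
      intro h
      have hv' : (v : Q) ∈ C := ⟨v.2, by
        have h0 := congrArg Subtype.val hTv
        have h1 : ((T v : B) : Q) = a v := rfl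
        rw [h1] at h0
        exact h0.trans (by rfl)⟩
      rw [h, mem_bot] at hv'
      exact hv (Subtype.ext hv')
    have hCinv : ∀ c ∈ Γ, ∀ x ∈ C, c x ∈ C := by
      rintro c hc x ⟨hx, hx'⟩
      refine ⟨hBinv c hc x hx, ?_⟩
      have h1 : ⁅a, c⁆ ∈ Γ₅ := hcomm a ha c hc
      have h2 : a * c = ⁅a, c⁆ * (c * a) := by
        rw [commutatorElement_def]; group
      have h3 : (a * c) x = ⁅a, c⁆ (c (a x)) := by rw [h2]; rfl
      have h4 : c (a x) = (c x) ^ l := by rw [hx', map_pow]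
      have h5' : (c x) ^ l ∈ B := B.pow_mem (hBinv c hc x hx) l
      have h6 : a (c x) = (a * c) x := rfl
      rw [h6, h3, h4, hfixB _ h5' _ h1]
    have := hBmin C hCB hCne hCinv
    intro x hx
    rw [← this] at hx
    exact hx.2
  -- conclusion
  obtain ⟨v, hv, hv1⟩ := B.bot_or_exists_ne_one.resolve_left hBne
  have hov : orderOf v = p := orderOf_eq_prime (hexp v hv) hv1
  refine ⟨B, ?_, hBinv⟩
  have hzB : zpowers v ≤ B := (zpowers_le).mpr hv
  have heq := hBmin (zpowers v) hzB ?_ ?_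
  · rw [← heq, Nat.card_zpowers, hov]
  · intro h
    rw [zpowers_eq_bot] at h
    exact hv1 h
  · rintro a ha x ⟨i, rfl⟩
    obtain ⟨l, hl⟩ := hscalar a ha
    simp only
    rw [map_zpow, hl v hv]
    exact Subgroup.zpow_mem _ (Subgroup.pow_mem _ (mem_zpowers v) _) _

end abstract

end Cfsg.Agent.Lib.HSubgroup.Line
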