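import Cfsg.Agent.Lib.HSubgroup.Chain
import Cfsg.Agent.Lib.FPF.UniqueOrderP
import Cfsg.Agent.Lib.SolvStruct.Super

/-!
# Reaching a normal subgroup with `H`-subgroup hypotheses
-/

set_option autoImplicit false
set_option linter.unusedSectionVars false
set_option linter.style.haveILetI false

namespace Cfsg.Agent.Lib.HSubgroup.Reach

open Subgroup Cfsg Cfsg.Agent.Lib.HSubgroup.Basic Cfsg.Agent.Lib.HSubgroup.Main
  Cfsg.Agent.Lib.HSubgroup.Chain Cfsg.Agent.Lib.SolvStruct.Super
  Cfsg.Agent.Lib.Transfer.Basic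

variable {G : Type*} [Group G] [Finite G]

/-- The invariant line in the cyclic case. -/
theorem exists_line_cyclic {p : ℕ} [hp : Fact p.Prime] {L N A : Subgroup G} (hL : IsPGroup p L)
    (hc : IsCyclic L) (hNL : N ≤ normalizer (L : Set G)) (hAL : A ≤ L) (hAne : A ≠ L) :
    ∃ (g : G), g ∈ L ∧ g ∉ A ∧ N ≤ normalizer ((A ⊔ zpowers g : Subgroup G) : Set G) := by
  obtain ⟨a, ha⟩ := IsPGroup.iff_card.mp (hL.to_le hAL)
  obtain ⟨c, hc'⟩ := IsPGroup.iff_card.mp hL
  have hlt : A < L := lt_of_le_of_ne hAL hAne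
  have hac : a < c := by
    have := Cfsg.Agent.Lib.PGroups.Basic.card_lt_of_lt hlt
    rw [ha, hc'] at this
    exact (Nat.pow_lt_pow_iff_right hp.out.one_lt).mp this
  obtain ⟨B, hAB, hBL, hBc⟩ := exists_between_card (p := p) (H := A) (X := L) (m := a + 1) hAL hL
    (by rw [ha]; exact Nat.pow_le_pow_right hp.out.pos (by omega))
    (by rw [hc']; exact Nat.pow_le_pow_right hp.out.pos (by omega))
  have hABne : A ≠ B := by
    intro h
    rw [← h, ha] at hBc
    have := Nat.pow_right_injective hp.out.two_le hBc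
    omega
  obtain ⟨g, hgB, hgA⟩ := SetLike.exists_of_lt (lt_of_le_of_ne hAB hABne)
  -- `A ⊔ ⟨g⟩ = B`
  have hsupB : A ⊔ zpowers g ≤ B := sup_le hAB ((zpowers_le).mpr hgB)
  have hsupeq : A ⊔ zpowers g = B := by
    have h1 : Nat.card (A ⊔ zpowers g : Subgroup G) ∣ p ^ (a + 1) := by
      rw [← hBc]
      exact Subgroup.card_dvd_of_le hsupB
    obtain ⟨j, hj, hj2⟩ := (Nat.dvd_prime_pow hp.out).mp h1
    have hlt2 : A < A ⊔ zpowers g := by
      refine lt_of_le_of_ne le_sup_left ?_
      intro h
      apply hgA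
      rw [h]
      exact (le_sup_right : zpowers g ≤ _) (mem_zpowers g)
    have h3 := Cfsg.Agent.Lib.PGroups.Basic.card_lt_of_lt hlt2
    rw [ha, hj2] at h3
    have h4 := (Nat.pow_lt_pow_iff_right hp.out.one_lt).mp h3
    have h5 : j = a + 1 := by omega
    apply Subgroup.eq_of_le_of_card_ge hsupB
    rw [hBc, hj2, h5]
  refine ⟨g, hBL hgB, hgA, ?_⟩
  rw [hsupeq]
  intro n hn
  apply mem_normalizer_of_conj_le
  -- the conjugate of `B` is a subgroup of the cyclic group `L` of the same order
  have hcard : Nat.card (B.map (MulAut.conj n).toMonoidHom) = Nat.card B :=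
    Subgroup.card_map_of_injective (MulAut.conj n).injective
  have hleL : B.map (MulAut.conj n).toMonoidHom ≤ L := by
    rintro _ ⟨x, hx, rfl⟩
    exact (mem_normalizer_iff.mp (hNL hn) x).mp (hBL hx)
  have hsub : (B.map (MulAut.conj n).toMonoidHom).subgroupOf L = B.subgroupOf L := by
    apply Cfsg.Agent.Lib.FPF.UniqueOrderP.subgroup_eq_of_card_eq
    rw [Nat.card_congr (Subgroup.subgroupOfEquivOfLe hleL).toEquiv,
      Nat.card_congr (Subgroup.subgroupOfEquivOfLe hBL).toEquiv, hcard]
  intro x hx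
  have hmem : n * x * n⁻¹ ∈ B.map (MulAut.conj n).toMonoidHom := ⟨x, hx, rfl⟩
  have h1 : (⟨n * x * n⁻¹, hleL hmem⟩ : L) ∈ (B.map (MulAut.conj n).toMonoidHom).subgroupOf L := hmem
  rw [hsub] at h1
  exact h1

/-- The hypothesis on a subgroup `K` of `G`. -/
def Hh (K : Subgroup G) : Prop :=
  ∀ (p : ℕ), p.Prime → ∀ P : Subgroup G, P ≤ K → IsPGroup p P → ¬ p ∣ P.relIndex K → ¬ IsCyclic ↥P →
      ∃ D : Subgroup G, D ≤ P ∧ 1 < Nat.card D ∧ Nat.card D < Nat.card P ∧
        ∀ F : Subgroup G, F ≤ P → (Nat.card F = Nat.card D ∨ (Nat.card D = 2 ∧ Nat.card F = 4)) →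
          ∀ g : G, F.map (MulAut.conj g).toMonoidHom ⊓ Subgroup.normalizer (F : Set G) ≤ F

/-- Restriction to `K` of an `H`-subgroup of `G` inside `K`. -/
theorem isH_of_map {K : Subgroup G} {E : Subgroup K} (hE : IsH (E.map K.subtype)) : IsH E := by
  intro g x ⟨⟨e, he, hex⟩, hxN⟩
  have hxG : (x : G) ∈ (E.map K.subtype).map (MulAut.conj (g : G)).toMonoidHom ⊓
      normalizer ((E.map K.subtype : Subgroup G) : Set G) := by
    constructor
    · refine ⟨(e : G), ⟨e, he, rfl⟩, ?_⟩
      have := congrArg Subtype.val hex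
      simpa using this
    · show (x : G) ∈ normalizer _
      rw [mem_normalizer_iff]
      intro b
      constructor
      · rintro ⟨c, hc, rfl⟩
        refine ⟨x * c * x⁻¹, ?_, by simp⟩
        exact (mem_normalizer_iff.mp hxN c).mp hc
      · rintro ⟨c, hc, hcb⟩
        have hbK : b ∈ K := by
          have h1 : (x : G) * b * (x : G)⁻¹ ∈ K := by
            rw [← hcb]
            exact c.2
          have h2 := K.mul_mem (K.mul_mem (K.inv_mem x.2) h1) x.2
          have e2 : (x : G)⁻¹ * ((x : G) * b * (x : G)⁻¹) * (x : G) = b := by group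
          rwa [e2] at h2
        refine ⟨⟨b, hbK⟩, ?_, rfl⟩
        have : c = x * ⟨b, hbK⟩ * x⁻¹ := by
          apply Subtype.ext
          simpa using hcb
        refine (mem_normalizer_iff.mp hxN ⟨b, hbK⟩).mpr ?_
        rw [← this]
        exact hc
  obtain ⟨c, hc, hcx⟩ := hE _ hxG
  have : c = x := Subtype.ext hcx
  exact this ▸ hc

/-- The normal `p`-complement in the normal subgroup `K`. -/
theorem hasNormalPComplement_of_Hh {K : Subgroup G} (hK : Hh K) {p : ℕ} [hp : Fact p.Prime]
    (hmin : ∀ q : ℕ, q.Prime → q ∣ Nat.card K → p ≤ q) (S : Sylow p K) :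
    HasNormalPComplement p K := by
  refine hasNormalPComplement_of_key S ?_
  intro f Q hQP y hy hyQ a ha
  have hs := small_of_coprime hmin hy
  set P₀ : Subgroup G := (S : Subgroup K).map K.subtype with hP₀
  have hP₀K : P₀ ≤ K := map_subtype_le _
  have hP₀p : IsPGroup p P₀ := S.isPGroup'.map _
  have hcP₀ : Nat.card P₀ = Nat.card (S : Subgroup K) :=
    Nat.card_congr ((S : Subgroup K).equivMapOfInjective K.subtype K.subtype_injective).symm.toEquiv
  by_cases hcyc : IsCyclic (S : Subgroup K)
  · exact key_of_cyclic S.isPGroup' hcyc f hQP hs hyQ ha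
  · have hP₀nc : ¬ IsCyclic P₀ := by
      intro h
      apply hcyc
      exact isCyclic_of_surjective
        ((S : Subgroup K).equivMapOfInjective K.subtype K.subtype_injective).symm.toMonoidHom
        ((S : Subgroup K).equivMapOfInjective K.subtype K.subtype_injective).symm.surjective
    have hrel : ¬ p ∣ P₀.relIndex K := by
      rw [Subgroup.relIndex, hP₀, Subgroup.subgroupOf,
        Subgroup.comap_map_eq_self_of_injective K.subtype_injective]
      exact S.not_dvd_index
    obtain ⟨D, hDP, h1, hlt, hE⟩ := hK p hp.out P₀ hP₀K hP₀p hrel hP₀nc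
    have hDp : IsPGroup p D := hP₀p.to_le hDP
    obtain ⟨k, hk⟩ := IsPGroup.iff_card.mp hDp
    have hk1 : 1 ≤ k := by
      rcases Nat.eq_zero_or_pos k with rfl | h
      · rw [hk] at h1; simp at h1
      · exact h
    have hDK : D ≤ K := hDP.trans hP₀K
    have hcD : Nat.card (D.subgroupOf K) = Nat.card D :=
      Nat.card_congr (Subgroup.subgroupOfEquivOfLe hDK).toEquiv
    have H : Hyp (p := p) (S : Subgroup K) (D.subgroupOf K) k := by
      refine ⟨S.isPGroup', by rw [hcD, hk], hk1, ?_, ?_⟩
      · rw [← hcP₀, ← hk]; exact hlt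
      · intro E hES hEc
        apply isH_of_map
        have hcE : Nat.card (E.map K.subtype) = Nat.card E :=
          Nat.card_congr (E.equivMapOfInjective K.subtype K.subtype_injective).symm.toEquiv
        refine hE _ (Subgroup.map_mono hES) ?_
        rw [hcE, ← hcD]
        exact hEc
    exact key_of_hyp H f hQP hs hyQ ha

/-- The main reach theorem. -/
theorem reach_of_Hh : ∀ (K : Subgroup G), K.Normal → Hh K → Reach K := by
  intro K
  induction' hn : Nat.card K using Nat.strong_induction_on with n ih generalizing K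
  intro hKn hK
  by_cases hbot : K = ⊥
  · subst hbot
    exact Reach.bot
  have hnt : Nontrivial K := (Subgroup.bot_or_nontrivial K).resolve_left hbot
  have hone : Nat.card K ≠ 1 := Finite.one_lt_card.ne'
  set p := (Nat.card K).minFac with hpdef
  have hpp : p.Prime := Nat.minFac_prime hone
  haveI hp : Fact p.Prime := ⟨hpp⟩
  have hdvd : p ∣ Nat.card K := Nat.minFac_dvd _
  obtain ⟨S⟩ : Nonempty (Sylow p K) := inferInstance
  have hcompl : HasNormalPComplement p K := hasNormalPComplement_of_Hh hK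
    (fun q hq hqd => Nat.minFac_le_of_dvd hq.two_le hqd) S
  set P₀ : Subgroup G := (S : Subgroup K).map K.subtype with hP₀
  have hP₀K : P₀ ≤ K := map_subtype_le _
  have hP₀p : IsPGroup p P₀ := S.isPGroup'.map _
  have hrel : ¬ p ∣ P₀.relIndex K := by
    rw [Subgroup.relIndex, hP₀, Subgroup.subgroupOf,
      Subgroup.comap_map_eq_self_of_injective K.subtype_injective]
    exact S.not_dvd_index
  -- the normal complement
  set K₁ : Subgroup G := (pResidual p K).map K.subtype with hK₁
  have hK₁n : K₁.Normal := map_subtype_normal_of_characteristic K _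
  have hK₁K : K₁ ≤ K := map_subtype_le _
  have hcK₁ : Nat.card K₁ = Nat.card (pResidual p K) :=
    Nat.card_congr ((pResidual p K).equivMapOfInjective K.subtype K.subtype_injective).symm.toEquiv
  have hcop : (Nat.card K₁).Coprime p := by
    rw [hcK₁]
    exact hasNormalPComplement_iff_pResidual.mp hcompl
  have hcompS := isComplement'_pResidual hcompl S
  have hcards : Nat.card (pResidual p K) * Nat.card (S : Subgroup K) = Nat.card K :=
    hcompS.card_mul_card
  have hK₁lt : Nat.card K₁ < n := by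
    rw [← hn]
    have hle : Nat.card K₁ ≤ Nat.card K := Subgroup.card_le_of_le hK₁K
    refine lt_of_le_of_ne hle ?_
    intro heq
    rw [heq] at hcop
    exact (Nat.Prime.coprime_iff_not_dvd hpp).mp hcop.symm hdvd
  -- the hypothesis passes to `K₁`
  have hHK₁ : Hh K₁ := by
    intro q hq Q hQK₁ hQp hQrel hQnc
    by_cases hqp : q = p
    · exfalso
      apply hQnc
      have hQ1 : Q = ⊥ := by
        haveI : Fact q.Prime := ⟨hq⟩
        obtain ⟨b, hb⟩ := IsPGroup.iff_card.mp hQp
        have h1 : Nat.card Q ∣ Nat.card K₁ := Subgroup.card_dvd_of_le hQK₁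
        rw [hb] at h1
        have h2 : Nat.Coprime (q ^ b) (Nat.card K₁) := by
          rw [hqp]
          exact (Nat.Coprime.pow_right b hcop).symm
        have h3 : q ^ b = 1 := Nat.Coprime.eq_one_of_dvd h2 h1
        rw [h3] at hb
        exact Subgroup.card_eq_one.mp hb
      subst hQ1
      exact isCyclic_of_subsingleton
    · apply hK q hq Q (hQK₁.trans hK₁K) hQp _ hQnc
      have h1 : Q.relIndex K = Q.relIndex K₁ * K₁.relIndex K :=
        (Subgroup.relIndex_mul_relIndex Q K₁ K hQK₁ hK₁K).symm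
      have h2 : K₁.relIndex K = Nat.card (S : Subgroup K) := by
        rw [Subgroup.relIndex]
        have h3 := Subgroup.card_mul_index (K₁.subgroupOf K)
        have h4 : Nat.card (K₁.subgroupOf K) = Nat.card K₁ :=
          Nat.card_congr (Subgroup.subgroupOfEquivOfLe hK₁K).toEquiv
        rw [h4, hcK₁, ← hcards] at h3
        exact (Nat.eq_of_mul_eq_mul_left Nat.card_pos h3)
      obtain ⟨m, hm⟩ := IsPGroup.iff_card.mp S.isPGroup'
      rw [h1, h2, hm]
      intro hdvd2
      rcases (Nat.Prime.dvd_mul hq).mp hdvd2 with h5 | h5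
      · exact hQrel h5
      · exact hqp ((Nat.prime_dvd_prime_iff_eq hq hpp).mp (hq.dvd_of_dvd_pow h5))
  have hRK₁ : Reach K₁ := ih _ hK₁lt K₁ rfl hK₁n hHK₁
  -- Frattini
  set N : Subgroup G := normalizer (P₀ : Set G) with hN
  have hsupK : K₁ ⊔ P₀ = K := by
    rw [hK₁, hP₀, ← Subgroup.map_sup, hcompS.sup_eq_top, ← MonoidHom.range_eq_map,
      Subgroup.range_subtype]
  have hFr : K₁ ⊔ N = ⊤ := by
    have h1 := Sylow.normalizer_sup_eq_top (N := K) S
    rw [eq_top_iff, ← h1]
    apply sup_le
    · exact le_sup_right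
    · rw [← hsupK]
      apply sup_le le_sup_left
      exact Subgroup.le_normalizer.trans le_sup_right
  have hnorm : ∀ A : Subgroup G, N ≤ normalizer (A : Set G) → (K₁ ⊔ A).Normal := by
    intro A hA
    rw [← Subgroup.normalizer_eq_top_iff]
    rw [eq_top_iff, ← hFr]
    apply sup_le
    · intro k hk
      apply mem_normalizer_of_conj_le
      have hle : K₁ ⊔ A ≤ (K₁ ⊔ A).comap (MulAut.conj k).toMonoidHom := by
        apply sup_le
        · intro x hx
          exact (le_sup_left : K₁ ≤ _) (hK₁n.conj_mem x hx k)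
        · intro a ha
          show k * a * k⁻¹ ∈ K₁ ⊔ A
          have e : k * a * k⁻¹ = (k * (a * k⁻¹ * a⁻¹)) * a := by group
          rw [e]
          refine mul_mem ((le_sup_left : K₁ ≤ _) ?_) ((le_sup_right : A ≤ _) ha)
          exact K₁.mul_mem hk (hK₁n.conj_mem _ (K₁.inv_mem hk) a)
      exact fun x hx => hle hx
    · intro m hm
      apply mem_normalizer_of_conj_le
      have hle : K₁ ⊔ A ≤ (K₁ ⊔ A).comap (MulAut.conj m).toMonoidHom := by
        apply sup_le
        · intro x hx
          exact (le_sup_left : K₁ ≤ _) (hK₁n.conj_mem x hx m)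
        · intro a ha
          exact (le_sup_right : A ≤ _) ((mem_normalizer_iff.mp (hA hm) a).mp ha)
      exact fun x hx => hle hx
  -- the line
  have hline : ∀ A : Subgroup G, A ≤ P₀ → A ≠ P₀ → N ≤ normalizer (A : Set G) →
      ∃ g : G, g ∈ P₀ ∧ g ∉ A ∧ N ≤ normalizer ((A ⊔ zpowers g : Subgroup G) : Set G) := by
    intro A hAP hAne hAN
    by_cases hcyc : IsCyclic P₀
    · exact exists_line_cyclic hP₀p hcyc le_rfl hAP hAne
    · obtain ⟨D, hDP, h1, hlt, hE⟩ := hK p hpp P₀ hP₀K hP₀p hrel hcyc
      have hDp : IsPGroup p D := hP₀p.to_le hDP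
      obtain ⟨k, hk⟩ := IsPGroup.iff_card.mp hDp
      have hk1 : 1 ≤ k := by
        rcases Nat.eq_zero_or_pos k with rfl | h
        · rw [hk] at h1; simp at h1
        · exact h
      have H : Hyp2 p P₀ N k :=
        { hL := hP₀p
          hk := hk1
          hlt := hk ▸ hlt
          hLN := Subgroup.le_normalizer
          hNL := le_rfl
          hF := by
            intro F hFP hFc
            have hFH : IsH F := hE F hFP (by rwa [hk])
            intro m hm
            apply mem_normalizer_of_conj_le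
            intro x hx
            apply hFH.conj_mem hx
            apply hFH.le_normalizer hP₀p hFP
            exact (mem_normalizer_iff.mp hm x).mp (hFP hx) }
      exact H.exists_line hAP hAne hAN
  -- climbing
  have hclimb : ∀ m : ℕ, ∀ A : Subgroup G, A ≤ P₀ → N ≤ normalizer (A : Set G) →
      Nat.card P₀ - Nat.card A = m → Reach (K₁ ⊔ A) → Reach (K₁ ⊔ P₀) := by
    intro m
    induction' m using Nat.strong_induction_on with m ihm
    intro A hAP hAN hm hR
    by_cases hAeq : A = P₀
    · rwa [hAeq] at hR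
    obtain ⟨g, hgP, hgA, hNg⟩ := hline A hAP hAeq hAN
    have hlt : A < A ⊔ zpowers g := by
      refine lt_of_le_of_ne le_sup_left ?_
      intro h
      apply hgA
      rw [h]
      exact (le_sup_right : zpowers g ≤ _) (mem_zpowers g)
    have hleP : A ⊔ zpowers g ≤ P₀ := sup_le hAP ((zpowers_le).mpr hgP)
    have hc1 := Cfsg.Agent.Lib.PGroups.Basic.card_lt_of_lt hlt
    have hc2 : Nat.card (A ⊔ zpowers g : Subgroup G) ≤ Nat.card P₀ := Subgroup.card_le_of_le hleP
    refine ihm _ (by omega) (A ⊔ zpowers g) hleP hNg rfl ?_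
    rw [← sup_assoc]
    refine Reach.step g hR ?_
    rw [sup_assoc]
    exact hnorm _ hNg
  have hfin := hclimb _ ⊥ bot_le (normalizer_bot_ge N) rfl (by rwa [sup_bot_eq])
  rwa [hsupK] at hfin

end Cfsg.Agent.Lib.HSubgroup.Reach
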